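import Mathlib
import Cfsg.Agent.Lib.PGroup.MaxNormal
import Cfsg.Agent.Lib.Coprime.Elem

/-!
# Quaternion pairs in non-cyclic `2`-groups with cyclic abelian subgroups
-/

set_option autoImplicit false

namespace Cfsg.Agent.Lib.Frobenius

open Cfsg

/-- Elements of the cyclic group generated by an element whose fourth power is trivial. -/
theorem mem_zpowers_four {X : Type*} [Group X] {a x : X} (ha : a ^ 4 = 1)
    (hx : x ∈ Subgroup.zpowers a) : x = 1 ∨ x = a ∨ x = a ^ 2 ∨ x = a⁻¹ := by
  obtain ⟨k, rfl⟩ := Subgroup.mem_zpowers_iff.mp hx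
  rw [zpow_eq_zpow_emod' k ha]
  have h4 : ((4 : ℕ) : ℤ) = 4 := rfl
  have hcases : k % ((4 : ℕ) : ℤ) = 0 ∨ k % ((4 : ℕ) : ℤ) = 1 ∨ k % ((4 : ℕ) : ℤ) = 2 ∨ k % ((4 : ℕ) : ℤ) = 3 := by
    omega
  rcases hcases with h | h | h | h
  · rw [h]; simp
  · rw [h]; simp
  · rw [h]; right; right; left; exact zpow_natCast a 2
  · rw [h]; right; right; right
    have h3 : a ^ (3 : ℤ) = a ^ 3 := zpow_natCast a 3
    rw [h3]
    apply eq_inv_of_mul_eq_one_left
    rw [← pow_succ]
    exact ha

/-- A non-cyclic `2`-group all of whose abelian subgroups are cyclic contains a quaternion pair. -/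
theorem exists_q8_pair {X : Type*} [Group X] [Finite X] (hX : IsPGroup 2 X)
    (hab : ∀ E : Subgroup X, IsMulCommutative E → IsCyclic E) (hnc : ¬ IsCyclic X) :
    ∃ a b : X, a ^ 4 = 1 ∧ a ^ 2 ≠ 1 ∧ b ^ 2 = a ^ 2 ∧ b * a * b⁻¹ = a⁻¹ := by
  classical
  haveI : Fact (Nat.Prime 2) := ⟨Nat.prime_two⟩
  haveI hNil : Group.IsNilpotent X := hX.isNilpotent
  have hcomm : ∀ u w : X, Commute u w → orderOf u ∣ orderOf w → u ∈ Subgroup.zpowers w := by
    intro u w huw hd
    let C : Subgroup X := Subgroup.closure {u, w}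
    have hCab : IsMulCommutative C := by
      apply Subgroup.isMulCommutative_closure
      intro x hx y hy
      rcases hx with rfl | rfl <;> rcases hy with rfl | rfl
      · rfl
      · exact huw
      · exact huw.symm
      · rfl
    haveI : IsCyclic C := hab C hCab
    have hu : u ∈ C := Subgroup.subset_closure (by simp)
    have hw : w ∈ C := Subgroup.subset_closure (by simp)
    have h1 := Cfsg.Agent.Lib.Coprime.mem_zpowers_of_orderOf_dvd (G := C) (x := ⟨u, hu⟩)
      (y := ⟨w, hw⟩) (by simpa [Subgroup.orderOf_mk] using hd)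
    obtain ⟨k, hk⟩ := Subgroup.mem_zpowers_iff.mp h1
    exact Subgroup.mem_zpowers_iff.mpr ⟨k, by simpa using congrArg Subtype.val hk⟩
  have hord : ∀ u : X, ∃ k : ℕ, orderOf u = 2 ^ k := fun u => IsPGroup.iff_orderOf.mp hX u
  haveI hnt : Nontrivial X := by
    by_contra h
    rw [not_nontrivial_iff_subsingleton] at h
    exact hnc inferInstance
  -- the central involution
  obtain ⟨t, ht⟩ : ∃ t : X, t ∈ Subgroup.center X ∧ orderOf t = 2 := by
    have hcen : Nontrivial (Subgroup.center X) := hX.center_nontrivial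
    have h1 : IsPGroup 2 (Subgroup.center X) := hX.to_subgroup _
    have h2 : 2 ∣ Nat.card (Subgroup.center X) := by
      obtain ⟨k, hk⟩ := IsPGroup.iff_card.mp h1
      have h3 : 1 < Nat.card (Subgroup.center X) := Finite.one_lt_card
      rw [hk] at h3 ⊢
      rcases k with _ | k
      · simp at h3
      · exact dvd_pow_self 2 (by omega)
    obtain ⟨z, hz⟩ := exists_prime_orderOf_dvd_card' 2 h2
    exact ⟨z, z.2, by rw [← hz]; exact Subgroup.orderOf_coe z⟩
  obtain ⟨htc, hto⟩ := ht
  have ht1 : t ≠ 1 := by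
    rintro rfl
    simp at hto
  have htt : t * t = 1 := by
    have := pow_orderOf_eq_one t
    rwa [hto, pow_two] at this
  have htcomm : ∀ g : X, g * t = t * g := fun g => (Subgroup.mem_center_iff.mp htc g)
  -- unique involution
  have huniq : ∀ u : X, u ^ 2 = 1 → u ≠ 1 → u = t := by
    intro u hu hu1
    have huo : orderOf u = 2 := orderOf_eq_prime hu hu1
    have h1 := hcomm u t (htcomm u) (by rw [huo, hto])
    have h2 : t ^ 4 = 1 := by
      rw [show 4 = 2 + 2 from rfl, pow_add, pow_two, htt, one_mul]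
    rcases mem_zpowers_four h2 h1 with h | h | h | h
    · exact absurd h hu1
    · exact h
    · rw [pow_two, htt] at h
      exact absurd h hu1
    · rw [h]
      exact inv_eq_of_mul_eq_one_left htt
  obtain ⟨A, hAn, hAc, hC⟩ := Cfsg.Agent.Lib.PGroup.exists_normal_abelian_self_centralizing (G := X)
  haveI hAcyc : IsCyclic A := hab A hAc
  obtain ⟨c₀, hc₀⟩ := IsCyclic.exists_generator (α := A)
  set c : X := (c₀ : X) with hc
  have hcA : c ∈ A := c₀.2
  have hAz : ∀ x ∈ A, x ∈ Subgroup.zpowers c := by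
    intro x hx
    obtain ⟨k, hk⟩ := Subgroup.mem_zpowers_iff.mp (hc₀ ⟨x, hx⟩)
    exact Subgroup.mem_zpowers_iff.mpr ⟨k, by simpa using congrArg Subtype.val hk⟩
  have hzA : ∀ k : ℤ, c ^ k ∈ A := fun k => A.zpow_mem hcA k
  have hAcomm : ∀ x ∈ A, ∀ y ∈ A, x * y = y * x := by
    intro x hx y hy
    have := hAc.is_comm.comm (⟨x, hx⟩ : A) ⟨y, hy⟩
    exact congrArg Subtype.val this
  -- commuting with `c` means lying in `A`
  have hcentA : ∀ x : X, x * c = c * x → x ∈ A := by
    intro x hx
    apply hC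
    rw [Subgroup.mem_centralizer_iff]
    intro y hy
    obtain ⟨k, rfl⟩ := Subgroup.mem_zpowers_iff.mp (hAz y hy)
    exact ((Commute.zpow_right (show Commute x c from hx) k).symm).eq
  obtain ⟨n, hn⟩ := hord c
  have hn2 : 2 ≤ n := by
    by_contra hlt
    have hc2 : c ^ 2 = 1 := by
      apply orderOf_dvd_iff_pow_eq_one.mp
      rw [hn]
      exact pow_dvd_pow 2 (by omega : n ≤ 1) |>.trans (by norm_num)
    have hcc : c ∈ Subgroup.center X := by
      by_cases h1 : c = 1
      · rw [h1]; exact Subgroup.one_mem _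
      · rw [huniq c hc2 h1]; exact htc
    apply hnc
    refine ⟨⟨c, fun x => ?_⟩⟩
    exact hAz x (hcentA x (Subgroup.mem_center_iff.mp hcc x))
  -- the element of order 4 in `A`
  obtain ⟨m, rfl⟩ : ∃ m, n = m + 2 := ⟨n - 2, by omega⟩
  set a : X := c ^ (2 ^ m) with ha
  have hao : orderOf a = 4 := by
    rw [ha, orderOf_pow_of_dvd (by positivity) (by rw [hn]; exact pow_dvd_pow 2 (by omega)), hn]
    rw [pow_add, Nat.mul_div_cancel_left _ (by positivity)]
    norm_num
  have haA : a ∈ A := A.pow_mem hcA _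
  have ha4 : a ^ 4 = 1 := by
    rw [← hao]; exact pow_orderOf_eq_one a
  have ha2 : a ^ 2 ≠ 1 := by
    intro h
    have := orderOf_dvd_of_pow_eq_one h
    rw [hao] at this
    omega
  have hconj : ∀ g : X, g * a * g⁻¹ = a ∨ g * a * g⁻¹ = a⁻¹ := by
    intro g
    have h1 : g * a * g⁻¹ ∈ A := hAn.conj_mem a haA g
    have h2 : orderOf (g * a * g⁻¹) = 4 := by
      rw [← hao]
      have h9 := MulEquiv.orderOf_eq (MulAut.conj g) a
      simpa [MulAut.conj_apply] using h9
    have h3 := hcomm _ a (hAcomm _ h1 _ haA) (by rw [h2, hao])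
    rcases mem_zpowers_four ha4 h3 with h | h | h | h
    · rw [h, orderOf_one] at h2
      omega
    · exact Or.inl h
    · exfalso
      rw [h] at h2
      have h4 : (a ^ 2) ^ 2 = 1 := by rw [← pow_mul]; exact ha4
      have h5 := orderOf_dvd_of_pow_eq_one h4
      rw [h2] at h5
      omega
    · exact Or.inr h
  by_cases hcen : ∀ g : X, g * a * g⁻¹ = a
  · -- the central case is impossible
    exfalso
    have hacen : ∀ g : X, g * a = a * g := by
      intro g
      have := hcen g
      rwa [mul_inv_eq_iff_eq_mul] at this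
    have hAne : ∃ x₀ : X, x₀ ∉ A := by
      by_contra hcon
      push Not at hcon
      exact hnc ⟨⟨c, fun x => hAz x (hcon x)⟩⟩
    obtain ⟨x₀, hx₀⟩ := hAne
    obtain ⟨k₀, hk₀⟩ := hord x₀
    have hex : ∃ i, x₀ ^ (2 ^ i) ∈ A := ⟨k₀, by rw [← hk₀, pow_orderOf_eq_one]; exact A.one_mem⟩
    have hi0 : Nat.find hex ≠ 0 := by
      intro h
      have := Nat.find_spec hex
      rw [h] at this
      simp at this
      exact hx₀ this
    obtain ⟨i, hi⟩ := Nat.exists_eq_succ_of_ne_zero hi0
    have hxnot : x₀ ^ (2 ^ i) ∉ A := Nat.find_min hex (by omega)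
    have hxsq : (x₀ ^ (2 ^ i)) ^ 2 ∈ A := by
      have := Nat.find_spec hex
      rw [hi, pow_succ, pow_mul] at this
      exact this
    set x : X := x₀ ^ (2 ^ i) with hx
    have hxc : x ^ 2 * c = c * x ^ 2 := hAcomm _ hxsq _ hcA
    set e : X := x * c * x⁻¹ with he
    have heA : e ∈ A := hAn.conj_mem c hcA x
    have hxe : x * e * x⁻¹ = c := by
      have : x * e * x⁻¹ = x ^ 2 * c * (x ^ 2)⁻¹ := by
        rw [he, pow_two]; group
      rw [this, hxc, mul_inv_cancel_right]
    set d : X := c⁻¹ * e with hd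
    have hdA : d ∈ A := A.mul_mem (A.inv_mem hcA) heA
    have hd1 : d ≠ 1 := by
      intro h
      have h1 : e = c := by
        rw [hd, inv_mul_eq_one] at h
        exact h.symm
      apply hxnot
      apply hcentA
      have h2 : x * c * x⁻¹ = c := h1
      rwa [mul_inv_eq_iff_eq_mul] at h2
    have hxd : x * d * x⁻¹ = d⁻¹ := by
      have hinv : x * c⁻¹ * x⁻¹ = e⁻¹ := by rw [he]; group
      calc x * d * x⁻¹ = (x * c⁻¹ * x⁻¹) * (x * e * x⁻¹) := by rw [hd]; group
        _ = e⁻¹ * c := by rw [hinv, hxe]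
        _ = d⁻¹ := by rw [hd]; group
    have hd2 : d ^ 2 = 1 := by
      by_contra hne
      obtain ⟨l, hl⟩ := hord d
      have hl2 : 2 ≤ l := by
        by_contra hlt
        apply hne
        apply orderOf_dvd_iff_pow_eq_one.mp
        rw [hl]
        exact (pow_dvd_pow 2 (by omega : l ≤ 1)).trans (by norm_num)
      obtain ⟨l', rfl⟩ : ∃ l', l = l' + 2 := ⟨l - 2, by omega⟩
      set a' : X := d ^ (2 ^ l') with ha'
      have ha'o : orderOf a' = 4 := by
        rw [ha', orderOf_pow_of_dvd (by positivity) (by rw [hl]; exact pow_dvd_pow 2 (by omega)), hl]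
        rw [pow_add, Nat.mul_div_cancel_left _ (by positivity)]
        norm_num
      have ha'A : a' ∈ A := A.pow_mem hdA _
      have h1 := hcomm a' a (hAcomm _ ha'A _ haA) (by rw [ha'o, hao])
      have hcc : x * a' * x⁻¹ = a' := by
        obtain ⟨k, hk⟩ := Subgroup.mem_zpowers_iff.mp h1
        rw [← hk]
        have : Commute x (a ^ k) := (Commute.zpow_right (show Commute x a from hacen x) k)
        rw [this.eq, mul_inv_cancel_right]
      have h2 : x * a' * x⁻¹ = a'⁻¹ := by
        rw [ha', ← conj_pow, hxd, inv_pow]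
      rw [h2] at hcc
      have h3 : a' ^ 2 = 1 := by
        rw [pow_two]
        nth_rewrite 1 [← hcc]
        simp
      have h4 := orderOf_dvd_of_pow_eq_one h3
      rw [ha'o] at h4
      omega
    have hdt : d = t := huniq d hd2 hd1
    have het : e = c * t := by
      rw [← hdt, hd, mul_inv_cancel_left]
    obtain ⟨s, hs⟩ : ∃ s : ℕ, c ^ s = x ^ 2 := by
      have := (mem_powers_iff_mem_zpowers (x := c) (y := x ^ 2)).mpr (hAz _ hxsq)
      exact this
    have hxcs : ∀ k : ℕ, x * c ^ k * x⁻¹ = c ^ k * t ^ k := by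
      intro k
      rw [← conj_pow]
      show e ^ k = _
      rw [het]
      exact (Commute.mul_pow (show Commute c t from (htcomm c)) k)
    have hts : t ^ s = 1 := by
      have h1 := hxcs s
      rw [hs] at h1
      have h2 : x * x ^ 2 * x⁻¹ = x ^ 2 := by
        rw [pow_two]; group
      rw [h2] at h1
      exact (mul_eq_left.mp h1.symm)
    have h2s : 2 ∣ s := by
      rw [← hto]
      exact orderOf_dvd_of_pow_eq_one hts
    obtain ⟨s', rfl⟩ := h2s
    set y : X := c ^ s' with hy
    have hyA : y ∈ A := A.pow_mem hcA _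
    set w : X := x * y⁻¹ with hw
    have hwA : w ∉ A := by
      intro h
      apply hxnot
      have : x = w * y := by rw [hw]; group
      rw [this]
      exact A.mul_mem h hyA
    have hxy : x * y * x⁻¹ = y * t ^ s' := hxcs s'
    have hw2 : w ^ 2 = (t ^ s')⁻¹ := by
      have hyy : x ^ 2 = y * y := by
        rw [← hs, hy, pow_mul']
        exact pow_two _
      have h1 : x * y⁻¹ * x⁻¹ = (y * t ^ s')⁻¹ := by
        rw [← hxy]; group
      have h2 : w ^ 2 = (x * y⁻¹ * x⁻¹) * x ^ 2 * y⁻¹ := by
        rw [hw, pow_two, pow_two]; group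
      rw [h2, h1, hyy]
      have h3 : (y * t ^ s')⁻¹ = (t ^ s')⁻¹ * y⁻¹ := by rw [mul_inv_rev]
      rw [h3]
      group
    have hw4 : (w ^ 2) ^ 2 = 1 := by
      rw [hw2, inv_pow, ← pow_mul, mul_comm, pow_mul, pow_two t, htt, one_pow, inv_one]
    by_cases hw1 : w ^ 2 = 1
    · have hwne : w ≠ 1 := by
        rintro h
        apply hwA
        rw [h]
        exact A.one_mem
      have : w = t := huniq w hw1 hwne
      apply hwA
      rw [this]
      exact hC (by
        rw [Subgroup.mem_centralizer_iff]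
        intro z _
        exact (htcomm z))
    · have hwo : orderOf w = 4 := by
        have h1 : w ^ (2 ^ 2) = 1 := by
          rw [show 2 ^ 2 = 2 * 2 from rfl, pow_mul]
          exact hw4
        have h2 : ¬ w ^ (2 ^ 1) = 1 := by simpa using hw1
        exact orderOf_eq_prime_pow h2 h1
      apply hwA
      have h1 := hcomm w a (hacen w) (by rw [hwo, hao])
      obtain ⟨k, hk⟩ := Subgroup.mem_zpowers_iff.mp h1
      rw [← hk]
      exact A.zpow_mem haA k
  · push Not at hcen
    obtain ⟨b, hb⟩ := hcen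
    have hba : b * a * b⁻¹ = a⁻¹ := (hconj b).resolve_left hb
    have hnotcomm : ∀ z : X, z ∈ Subgroup.zpowers b → z ≠ a ∧ z ≠ a⁻¹ := by
      have hz : ∀ z ∈ Subgroup.zpowers b, b * z * b⁻¹ = z := by
        intro z hz
        obtain ⟨k, rfl⟩ := Subgroup.mem_zpowers_iff.mp hz
        have : Commute b (b ^ k) := (Commute.refl b).zpow_right k
        rw [this.eq, mul_inv_cancel_right]
      intro z hzb
      constructor
      · rintro rfl
        exact hb (hz _ hzb)
      · rintro rfl
        apply hb
        have h1 := hz _ hzb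
        rw [← inv_inj]
        rw [← h1]
        group
    have hb2a : Commute (b ^ 2) a := by
      show b ^ 2 * a = a * b ^ 2
      have h1 : b ^ 2 * a * (b ^ 2)⁻¹ = a := by
        have h2 : b ^ 2 * a * (b ^ 2)⁻¹ = b * (b * a * b⁻¹) * b⁻¹ := by
          rw [pow_two]; group
        rw [h2, hba]
        have h3 : b * a⁻¹ * b⁻¹ = (b * a * b⁻¹)⁻¹ := by group
        rw [h3, hba, inv_inv]
      rwa [mul_inv_eq_iff_eq_mul] at h1
    obtain ⟨j, hj⟩ := hord (b ^ 2)
    have hb2mem : b ^ 2 ∈ Subgroup.zpowers b := Subgroup.npow_mem_zpowers b 2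
    refine ⟨a, b, ha4, ha2, ?_, hba⟩
    by_cases hj2 : 2 ≤ j
    · -- `a` is a power of `b²`
      exfalso
      have h1 : orderOf a ∣ orderOf (b ^ 2) := by
        rw [hao, hj]
        exact (by norm_num : 4 = 2 ^ 2) ▸ pow_dvd_pow 2 hj2
      have h2 := hcomm a (b ^ 2) hb2a.symm h1
      have h3 : a ∈ Subgroup.zpowers b := by
        obtain ⟨k, hk⟩ := Subgroup.mem_zpowers_iff.mp h2
        rw [← hk]
        exact Subgroup.zpow_mem _ hb2mem k
      exact (hnotcomm a h3).1 rfl
    · have h1 : orderOf (b ^ 2) ∣ orderOf a := by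
        rw [hao, hj]
        exact (pow_dvd_pow 2 (by omega : j ≤ 2)).trans (by norm_num)
      have h2 := hcomm (b ^ 2) a hb2a h1
      rcases mem_zpowers_four ha4 h2 with h | h | h | h
      · exfalso
        have hb1 : b ≠ 1 := by
          rintro rfl
          apply hb
          simp
        have hbt := huniq b h hb1
        apply hb
        rw [hbt]
        have := htcomm a
        rw [← this]
        group
      · exact absurd h (hnotcomm _ hb2mem).1
      · exact h
      · exact absurd h (hnotcomm _ hb2mem).2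

/-- A homomorphism out of the quaternion group of order `8`. -/
theorem exists_q8_hom {M : Type*} [Monoid M] (I J : M) (hI : I ^ 4 = 1) (hJ : J ^ 2 = I ^ 2)
    (hIJ : I * J = J * I ^ 3) : ∃ φ : QuaternionGroup 2 →* M, φ (QuaternionGroup.a 2) = I ^ 2 := by
  let E : ZMod (2 * 2) → M := fun i => I ^ i.val
  have hmod : ∀ k : ℕ, I ^ k = I ^ (k % 4) := by
    intro k
    conv_lhs => rw [← Nat.mod_add_div k 4, pow_add, pow_mul, hI, one_pow, mul_one]
  have hadd : ∀ i j : ZMod (2 * 2), E (i + j) = E i * E j := by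
    intro i j
    show I ^ (i + j).val = I ^ i.val * I ^ j.val
    rw [← pow_add, ZMod.val_add]
    exact (hmod _).symm
  have hE0 : E 0 = 1 := by
    show I ^ (0 : ZMod (2 * 2)).val = 1
    rw [ZMod.val_zero, pow_zero]
  have hE2 : E ((2 : ℕ) : ZMod (2 * 2)) = I ^ 2 := rfl
  have hswap : ∀ i : ZMod (2 * 2), E i * J = J * E (-i) := by
    have h1 : ∀ k : ℕ, I ^ k * J = J * (I ^ 3) ^ k := by
      intro k
      induction k with
      | zero => simp
      | succ k ih =>
        rw [pow_succ, mul_assoc, hIJ, ← mul_assoc, ih, mul_assoc, pow_succ (I ^ 3) k]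
    intro i
    show I ^ i.val * J = J * I ^ (-i).val
    rw [h1, ← pow_mul, hmod (3 * i.val)]
    have h2 : ∀ i : ZMod (2 * 2), (3 * i.val) % 4 = (-i).val := by decide
    rw [h2]
  refine ⟨{ toFun := fun g => match g with
              | QuaternionGroup.a i => E i
              | QuaternionGroup.xa i => J * E i
            map_one' := ?_
            map_mul' := ?_ }, ?_⟩
  · exact hE0
  · intro g h
    cases g with
    | a i =>
      cases h with
      | a j =>
        rw [QuaternionGroup.a_mul_a]
        exact hadd i j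
      | xa j =>
        rw [QuaternionGroup.a_mul_xa]
        show J * E (j - i) = E i * (J * E j)
        rw [← mul_assoc, hswap, mul_assoc, ← hadd, neg_add_eq_sub]
    | xa i =>
      cases h with
      | a j =>
        rw [QuaternionGroup.xa_mul_a]
        show J * E (i + j) = J * E i * E j
        rw [hadd, mul_assoc]
      | xa j =>
        rw [QuaternionGroup.xa_mul_xa]
        show E (((2 : ℕ) : ZMod (2 * 2)) + j - i) = J * E i * (J * E j)
        have h1 : J * E i * (J * E j) = J * (E i * J) * E j := by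
          simp only [mul_assoc]
        rw [h1, hswap]
        have h2 : J * (J * E (-i)) * E j = J ^ 2 * (E (-i) * E j) := by
          rw [pow_two]; simp only [mul_assoc]
        rw [h2, hJ, ← hE2, ← hadd, ← hadd]
        congr 1
        ring
  · rfl

/-- Modules for the quaternion group with central involution acting as `-1`, of every odd square
order. -/
theorem exists_q8_module (k : ℕ) (hk : Odd k) :
    ∃ (V : Type) (_ : AddCommGroup V) (_ : Finite V) (_ : DistribMulAction (QuaternionGroup 2) V),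
      Nat.card V = k * k ∧ ∀ v : V, (QuaternionGroup.a 2 : QuaternionGroup 2) • v = -v := by
  induction k using Nat.recOnMul with
  | zero => simp at hk
  | one =>
    exact ⟨PUnit, inferInstance, inferInstance, inferInstance, by simp, fun _ => rfl⟩
  | prime r hr =>
    have hr' : r.Prime := hr
    haveI : Fact r.Prime := ⟨hr'⟩
    obtain ⟨u, v, huv⟩ := ZMod.sq_add_sq r (-1 : ZMod r)
    let I : Matrix (Fin 2) (Fin 2) (ZMod r) := !![0, -1; 1, 0]
    let J : Matrix (Fin 2) (Fin 2) (ZMod r) := !![u, v; v, -u]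
    have hI2 : I ^ 2 = -1 := by
      rw [pow_two]
      ext i j
      fin_cases i <;> fin_cases j <;> simp [I, Matrix.mul_apply, Fin.sum_univ_two]
    have hI4 : I ^ 4 = 1 := by
      rw [show 4 = 2 * 2 from rfl, pow_mul, hI2]
      simp
    have hJ2 : J ^ 2 = I ^ 2 := by
      rw [hI2, pow_two]
      ext i j
      fin_cases i <;> fin_cases j <;> simp [J, Matrix.mul_apply, Fin.sum_univ_two] <;>
        first | linear_combination huv | ring
    have hIJ : I * J = J * I ^ 3 := by
      rw [pow_succ, hI2]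
      ext i j
      fin_cases i <;> fin_cases j <;> simp [I, J, Matrix.mul_apply, Fin.sum_univ_two]
    obtain ⟨φ, hφ⟩ := exists_q8_hom I J hI4 hJ2 hIJ
    letI : DistribMulAction (QuaternionGroup 2) (Fin 2 → ZMod r) :=
      { smul := fun g x => (φ g).mulVec x
        one_smul := fun x => by
          show (φ 1).mulVec x = x
          rw [map_one, Matrix.one_mulVec]
        mul_smul := fun g h x => by
          show (φ (g * h)).mulVec x = (φ g).mulVec ((φ h).mulVec x)
          rw [map_mul, Matrix.mulVec_mulVec]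
        smul_zero := fun g => Matrix.mulVec_zero _
        smul_add := fun g x y => Matrix.mulVec_add _ _ _ }
    refine ⟨Fin 2 → ZMod r, inferInstance, inferInstance, inferInstance, ?_, ?_⟩
    · rw [Nat.card_fun, Nat.card_zmod, Nat.card_fin, pow_two]
    · intro x
      show (φ (QuaternionGroup.a 2)).mulVec x = -x
      rw [hφ, hI2, Matrix.neg_mulVec, Matrix.one_mulVec]
  | mul a b iha ihb =>
    have h1 := Nat.odd_mul.mp hk
    obtain ⟨V, i1, i2, i3, hV, hV2⟩ := iha h1.1
    obtain ⟨W, j1, j2, j3, hW, hW2⟩ := ihb h1.2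
    refine ⟨V × W, inferInstance, inferInstance, inferInstance, ?_, ?_⟩
    · rw [Nat.card_prod, hV, hW]
      ring
    · intro x
      show ((QuaternionGroup.a 2 : QuaternionGroup 2) • x.1, (QuaternionGroup.a 2 : QuaternionGroup 2) • x.2) = -x
      rw [hV2, hW2]
      rfl

end Cfsg.Agent.Lib.Frobenius
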